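import Groth.Prelude.Def_Tors
import Groth.Agent.CurvesA.Torsor

/-!
# `H¹` and torsors on a site without a terminal object

* `Compat F x`: `x` is a compatible family of sections of the abelian presheaf `F` (a global
  section).
* `lift_of_H1`: compatible families of sections lift along an epimorphism if `H¹` of the kernel
  vanishes.
* `H1_of_lift`: the converse when `H¹` of the middle term vanishes.
* `hasSection_of_H1`: if `H¹(G) = 0` then every `G`-torsor has a global section.
* `H1_of_hasSection`: if every `G`-torsor has a global section then `H¹(G) = 0`.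
-/

set_option autoImplicit false

universe u

open CategoryTheory CategoryTheory.Limits Opposite

namespace Groth.Agent.Topos.H579.TorsH1

variable {C : Type u} [SmallCategory C] {J : GrothendieckTopology C}

/-- compatible families of sections -/
def Compat (F : Cᵒᵖ ⥤ AddCommGrpCat.{u}) (x : ∀ U : Cᵒᵖ, F.obj U) : Prop :=
  ∀ ⦃U V : Cᵒᵖ⦄ (f : U ⟶ V), F.map f (x U) = x V

/-- the map from the constant presheaf defined by a compatible family -/
noncomputable def cst (F : Cᵒᵖ ⥤ AddCommGrpCat.{u}) (x : ∀ U : Cᵒᵖ, F.obj U) (hx : Compat F x) :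
    (Functor.const Cᵒᵖ).obj (AddCommGrpCat.of (ULift.{u} ℤ)) ⟶ F where
  app U := AddCommGrpCat.ofHom (uliftZMultiplesHom (F.obj U) (x U))
  naturality U V f := by
    ext ⟨n⟩
    change n • x V = F.map f (n • x U)
    rw [map_zsmul, hx f]

lemma cst_app_one (F : Cᵒᵖ ⥤ AddCommGrpCat.{u}) (x : ∀ U : Cᵒᵖ, F.obj U) (hx : Compat F x)
    (U : Cᵒᵖ) : (cst F x hx).app U (ULift.up (1 : ℤ)) = x U := by
  change (1 : ℤ) • x U = x U
  rw [one_smul]

lemma compat_of_hom {F : Cᵒᵖ ⥤ AddCommGrpCat.{u}}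
    (t : (Functor.const Cᵒᵖ).obj (AddCommGrpCat.of (ULift.{u} ℤ)) ⟶ F) :
    Compat F (fun U => t.app U (ULift.up (1 : ℤ))) := by
  intro U V f
  exact (ConcreteCategory.congr_hom (t.naturality f) (ULift.up (1 : ℤ))).symm

/-- the constant sheaf `ℤ` -/
noncomputable abbrev Z (J : GrothendieckTopology C) : Sheaf J AddCommGrpCat.{u} :=
  (constantSheaf J AddCommGrpCat.{u}).obj (AddCommGrpCat.of (ULift.{u} ℤ))

/-- maps from the constant sheaf -/
noncomputable def homEq (F : Sheaf J AddCommGrpCat.{u}) :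
    (Z J ⟶ F) ≃ ((Functor.const Cᵒᵖ).obj (AddCommGrpCat.of (ULift.{u} ℤ)) ⟶ F.obj) :=
  (sheafificationAdjunction J AddCommGrpCat.{u}).homEquiv _ F

lemma homEq_comp {F G : Sheaf J AddCommGrpCat.{u}} (a : Z J ⟶ F) (f : F ⟶ G) :
    homEq G (a ≫ f) = homEq F a ≫ f.hom :=
  (sheafificationAdjunction J AddCommGrpCat.{u}).homEquiv_naturality_right a f

/-- compatible families lift if `H¹` of the kernel vanishes -/
theorem lift_of_H1 {S : ShortComplex (Sheaf J AddCommGrpCat.{u})} (hS : S.ShortExact)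
    [Subsingleton (Sheaf.H.{u} S.X₁ 1)] (q : ∀ U, S.X₃.obj.obj U) (hq : Compat S.X₃.obj q) :
    ∃ s : ∀ U, S.X₂.obj.obj U, Compat S.X₂.obj s ∧ ∀ U, S.g.hom.app U (s U) = q U := by
  let a : Z J ⟶ S.X₃ := (homEq S.X₃).symm (cst _ q hq)
  obtain ⟨x₂, hx₂⟩ := Abelian.Ext.covariant_sequence_exact₃ _ hS
    (Abelian.Ext.mk₀ a) (n₁ := 1) rfl (Subsingleton.elim _ _)
  obtain ⟨b, rfl⟩ := (Abelian.Ext.mk₀_bijective _ _).2 x₂
  rw [Abelian.Ext.mk₀_comp_mk₀] at hx₂
  have hab : b ≫ S.g = a := (Abelian.Ext.mk₀_bijective _ _).1 hx₂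
  refine ⟨_, compat_of_hom (homEq S.X₂ b), fun U => ?_⟩
  have h1 : homEq S.X₂ b ≫ S.g.hom = cst _ q hq := by
    rw [← homEq_comp, hab]
    exact Equiv.apply_symm_apply _ _
  have h2 := ConcreteCategory.congr_hom (NatTrans.congr_app h1 U) (ULift.up (1 : ℤ))
  exact h2.trans (cst_app_one _ q hq U)

/-- `H¹` vanishes if it vanishes for a bigger sheaf and compatible families lift. -/
theorem H1_of_lift {S : ShortComplex (Sheaf J AddCommGrpCat.{u})} (hS : S.ShortExact)
    [Subsingleton (Sheaf.H.{u} S.X₂ 1)]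
    (h : ∀ q : ∀ U, S.X₃.obj.obj U, Compat S.X₃.obj q →
      ∃ s : ∀ U, S.X₂.obj.obj U, Compat S.X₂.obj s ∧ ∀ U, S.g.hom.app U (s U) = q U) :
    Subsingleton (Sheaf.H.{u} S.X₁ 1) := by
  refine subsingleton_of_forall_eq 0 fun x => ?_
  obtain ⟨x₃, rfl⟩ := Abelian.Ext.covariant_sequence_exact₁ _ hS x (Subsingleton.elim _ _)
    (n₀ := 0) rfl
  obtain ⟨a, rfl⟩ := (Abelian.Ext.mk₀_bijective _ _).2 x₃
  obtain ⟨s, hs, hsq⟩ := h _ (compat_of_hom (homEq S.X₃ a))
  let b : Z J ⟶ S.X₂ := (homEq S.X₂).symm (cst _ s hs)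
  have hb : b ≫ S.g = a := by
    apply (homEq S.X₃).injective
    rw [homEq_comp]
    have : homEq S.X₂ b = cst _ s hs := Equiv.apply_symm_apply _ _
    rw [this]
    ext U ⟨n⟩
    change S.g.hom.app U (n • s U) = (homEq S.X₃ a).app U (ULift.up n)
    rw [map_zsmul, hsq]
    have h3 := map_zsmul ((homEq S.X₃ a).app U).hom n (ULift.up (1 : ℤ))
    refine h3.symm.trans ?_
    congr 1
    change n • (ULift.up (1 : ℤ)) = ULift.up n
    ext
    simp
  rw [← hb, ← Abelian.Ext.mk₀_comp_mk₀, Abelian.Ext.comp_assoc_of_second_deg_zero,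
    ShortComplex.ShortExact.comp_extClass, Abelian.Ext.comp_zero]

open Groth.Agent.CurvesA.Torsor

/-- the difference map of a torsor -/
noncomputable def diff {G : Sheaf J AddCommGrpCat.{u}} (T : Tors.Torsor G) :
    DiffMap G.obj T.P.obj where
  d U p q := (T.free_transitive q p).choose
  d_add U p q r := by
    have hpq := (T.free_transitive q p).choose_spec.1
    have hqr := (T.free_transitive r q).choose_spec.1
    refine (T.free_transitive r p).choose_spec.2 _ ?_
    dsimp only at hpq hqr ⊢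
    rw [T.add_vadd, hqr, hpq]
  d_map {U V} f p q := by
    have hpq := (T.free_transitive q p).choose_spec.1
    refine (T.free_transitive _ _).choose_spec.2 _ ?_
    dsimp only at hpq ⊢
    rw [← T.map_vadd, hpq]

lemma diff_spec {G : Sheaf J AddCommGrpCat.{u}} (T : Tors.Torsor G) (U : Cᵒᵖ) (p q : T.P.obj.obj U) :
    T.vadd ((diff T).d U p q) q = p :=
  (T.free_transitive q p).choose_spec.1

lemma diff_vadd {G : Sheaf J AddCommGrpCat.{u}} (T : Tors.Torsor G) (U : Cᵒᵖ) (g : G.obj.obj U)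
    (q : T.P.obj.obj U) : (diff T).d U (T.vadd g q) q = g :=
  ((T.free_transitive q (T.vadd g q)).choose_spec.2 g rfl).symm

lemma supp_mem_torsor {G : Sheaf J AddCommGrpCat.{u}} (T : Tors.Torsor G) (U : C) :
    supp T.P.obj U ∈ J U := by
  obtain ⟨S, hS, h⟩ := T.locally_nonempty U
  exact J.superset_covering (fun V f hf => h f hf) hS

/-- a compatible family of elements of a sheaf of sets gives a map from the terminal sheaf. -/
theorem nonempty_hom_of_compat (P : Sheaf J (Type u)) (x : ∀ U : Cᵒᵖ, P.obj.obj U)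
    (hx : ∀ ⦃U V : Cᵒᵖ⦄ (f : U ⟶ V), P.obj.map f (x U) = x V) :
    Nonempty (⊤_ (Sheaf J (Type u)) ⟶ P) :=
  ⟨⟨{ app := fun U => ↾fun _ => x U
      naturality := fun U V f => by
        ext a
        exact (hx f).symm }⟩⟩

/-- the constant presheaf with value a point is a sheaf. -/
def pt (J : GrothendieckTopology C) : Sheaf J (Type u) :=
  ⟨(Functor.const Cᵒᵖ).obj PUnit.{u+1}, by
    rw [isSheaf_iff_isSheaf_of_type]
    intro U S hS x hx
    exact ⟨PUnit.unit, fun _ _ _ => rfl, fun _ _ => rfl⟩⟩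

/-- a map from the terminal sheaf gives a compatible family. -/
theorem exists_compat_of_hom (P : Sheaf J (Type u)) (a : ⊤_ (Sheaf J (Type u)) ⟶ P) :
    ∃ x : ∀ U : Cᵒᵖ, P.obj.obj U, ∀ ⦃U V : Cᵒᵖ⦄ (f : U ⟶ V), P.obj.map f (x U) = x V := by
  let b : pt J ⟶ P := terminal.from _ ≫ a
  refine ⟨fun U => b.hom.app U PUnit.unit, fun U V f => ?_⟩
  exact (ConcreteCategory.congr_hom (b.hom.naturality f) PUnit.unit).symm

/-- If `H¹(G) = 0` then every `G`-torsor has a global section. -/
theorem hasSection_of_H1_aux {S : ShortComplex (Sheaf J AddCommGrpCat.{u})} (hS : S.ShortExact)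
    [Injective S.X₂] [Subsingleton (Sheaf.H.{u} S.X₁ 1)] (T : Tors.Torsor S.X₁) :
    T.HasSection := by
  have := injective_presheaf S.X₂
  have := hS.mono_f
  obtain ⟨φ, hφ, hφd⟩ := exists_toInjective (diff T) S.f.hom
  have hzero : ∀ (U : C) (y : S.X₁.obj.obj (op U)),
      S.g.hom.app (op U) (S.f.hom.app (op U) y) = 0 := by
    intro U y
    have := congrArg (fun (t : S.X₁ ⟶ S.X₃) => t.hom.app (op U) y) S.zero
    exact this
  have key : ∀ (U : C) (p q : T.P.obj.obj (op U)),
      S.g.hom.app (op U) (φ (op U) p) = S.g.hom.app (op U) (φ (op U) q) := by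
    intro U p q
    rw [← sub_eq_zero, ← map_sub, hφd, hzero]
  have gnat : ∀ {U V : C} (f : V ⟶ U) (y : S.X₂.obj.obj (op U)),
      S.g.hom.app (op V) (S.X₂.obj.map f.op y) = S.X₃.obj.map f.op (S.g.hom.app (op U) y) := by
    intro U V f y
    exact ConcreteCategory.congr_hom (S.g.hom.naturality f.op) y
  -- the section of the quotient
  have hq : ∀ U : C, ∃ q : S.X₃.obj.obj (op U), ∀ {V : C} (f : V ⟶ U) (p : T.P.obj.obj (op V)),
      S.X₃.obj.map f.op q = S.g.hom.app (op V) (φ (op V) p) := by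
    intro U
    obtain ⟨q, hq⟩ := exists_glue S.X₃ (supp T.P.obj U) (supp_mem_torsor T U)
      (fun {V} f hf => S.g.hom.app (op V) (φ (op V) (Classical.choice hf))) (by
        intro V W g f hf
        rw [← gnat]
        rw [← hφ]
        exact key _ _ _)
    refine ⟨q, fun {V} f p => ?_⟩
    rw [hq f ⟨p⟩]
    exact key _ _ _
  choose q hq using hq
  have hqc : Compat S.X₃.obj (fun U => q U.unop) := by
    intro U V f
    apply eq_of_locally_eq S.X₃ _ (supp_mem_torsor T V.unop)
    intro W g hg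
    obtain ⟨p⟩ := hg
    have h1 := hq V.unop g p
    have h2 := hq U.unop (g ≫ f.unop) p
    rw [h1, ← h2, op_comp, Functor.map_comp]
    rfl
  obtain ⟨s, hsc, hs⟩ := lift_of_H1 hS _ hqc
  have huniq : ∀ (U : C) (p p' : T.P.obj.obj (op U)), φ (op U) p = s (op U) →
      φ (op U) p' = s (op U) → p = p' := by
    intro U p p' h h'
    have h1 := hφd (op U) p p'
    rw [h, h', sub_self] at h1
    have h2 : (diff T).d (op U) p p' = 0 := by
      apply sections_injective S.f U
      rw [map_zero]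
      exact h1.symm
    have h3 := diff_spec T (op U) p p'
    rw [h2, T.zero_vadd] at h3
    exact h3.symm
  have hloc : ∀ (V : C), Nonempty (T.P.obj.obj (op V)) →
      ∃ p : T.P.obj.obj (op V), φ (op V) p = s (op V) := by
    rintro V ⟨p⟩
    obtain ⟨y, hy⟩ := sections_exact hS V (φ (op V) p - s (op V)) (by
      rw [map_sub, hs]
      have := hq V (𝟙 V) p
      rw [op_id, S.X₃.obj.map_id] at this
      rw [← this]
      exact sub_self _)
    refine ⟨T.vadd (-y) p, ?_⟩
    have h1 := hφd (op V) (T.vadd (-y) p) p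
    rw [diff_vadd, map_neg, hy] at h1
    rw [sub_eq_iff_eq_add] at h1
    rw [h1]
    abel
  have hnat : ∀ {U V : C} (f : V ⟶ U) (p : T.P.obj.obj (op U)), φ (op U) p = s (op U) →
      φ (op V) (T.P.obj.map f.op p) = s (op V) := by
    intro U V f p h
    rw [hφ, h, hsc]
  have hex : ∀ U : C, ∃ p : T.P.obj.obj (op U), φ (op U) p = s (op U) := by
    intro U
    have hsh := (isSheaf_iff_isSheaf_of_type J T.P.obj).1 T.P.property
    let x : Presieve.FamilyOfElements T.P.obj (supp T.P.obj U).arrows :=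
      fun V f hf => (hloc V hf).choose
    have hx : x.Compatible := by
      rw [Presieve.compatible_iff_sieveCompatible]
      intro V W f g hf
      apply huniq W _ _ (hloc W ((supp T.P.obj U).downward_closed hf g)).choose_spec
      exact hnat g _ (hloc V hf).choose_spec
    obtain ⟨a, ha, -⟩ := hsh _ (supp_mem_torsor T U) x hx
    refine ⟨a, ?_⟩
    apply eq_of_locally_eq S.X₂ _ (supp_mem_torsor T U)
    intro V f hf
    rw [hsc, ← hφ, ha f hf]
    exact (hloc V hf).choose_spec
  choose p hp using hex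
  refine nonempty_hom_of_compat T.P (fun U => p U.unop) ?_
  intro U V f
  apply huniq V.unop _ _ _ (hp V.unop)
  exact hnat f.unop _ (hp U.unop)

/-- If `H¹(G) = 0` then every `G`-torsor has a global section. -/
theorem hasSection_of_H1 (G : Sheaf J AddCommGrpCat.{u}) [h : Subsingleton (Sheaf.H.{u} G 1)]
    (T : Tors.Torsor G) : T.HasSection := by
  obtain ⟨S, rfl, hS, hI⟩ := exists_injective_ses G
  exact hasSection_of_H1_aux hS T

section Lifts

variable {S : ShortComplex (Sheaf J AddCommGrpCat.{u})} (hS : S.ShortExact)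
  (q : ∀ U, S.X₃.obj.obj U) (hq : Compat S.X₃.obj q)

/-- the presheaf of lifts of a global section of the quotient -/
def liftsP : Cᵒᵖ ⥤ Type u where
  obj U := {s : S.X₂.obj.obj U // S.g.hom.app U s = q U}
  map {U V} f := ↾fun s => ⟨S.X₂.obj.map f s.1, by
    have h1 := ConcreteCategory.congr_hom (S.g.hom.naturality f) s.1
    rw [ConcreteCategory.comp_apply, ConcreteCategory.comp_apply] at h1
    rw [h1, s.2, hq]⟩
  map_id U := by
    ext s
    change S.X₂.obj.map (𝟙 U) s.1 = s.1
    rw [S.X₂.obj.map_id]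
    rfl
  map_comp f g := by
    ext s
    change S.X₂.obj.map (f ≫ g) s.1 = S.X₂.obj.map g (S.X₂.obj.map f s.1)
    rw [S.X₂.obj.map_comp]
    rfl

lemma g_f (U : Cᵒᵖ) (y : S.X₁.obj.obj U) : S.g.hom.app U (S.f.hom.app U y) = 0 := by
  have := congrArg (fun (t : S.X₁ ⟶ S.X₃) => t.hom.app U y) S.zero
  exact this

theorem isSheaf_lifts : Presieve.IsSheaf J (liftsP q hq) := by
  intro U R hR x hx
  have hcompat : ∀ {V W : C} (g : W ⟶ V) (f : V ⟶ U) (hf : R f),
    S.X₂.obj.map g.op (x f hf).1 = (x (g ≫ f) (R.downward_closed hf g)).1 := by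
    intro V W g f hf
    have := (Presieve.compatible_iff_sieveCompatible x).mp hx f g hf
    rw [this]
    rfl
  obtain ⟨a, ha⟩ := exists_glue S.X₂ R hR (fun {V} f hf => (x f hf).1) hcompat
  have haq : S.g.hom.app (op U) a = q (op U) := by
    apply eq_of_locally_eq S.X₃ R hR
    intro V f hf
    have h1 := ConcreteCategory.congr_hom (S.g.hom.naturality f.op) a
    refine Eq.trans h1.symm ?_
    change S.g.hom.app (op V) (S.X₂.obj.map f.op a) = _
    rw [ha f hf, (x f hf).2, hq]
  refine ⟨⟨a, haq⟩, ?_, ?_⟩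
  · intro V f hf
    apply Subtype.ext
    exact ha f hf
  · intro b hb
    apply Subtype.ext
    apply eq_of_locally_eq S.X₂ R hR
    intro V f hf
    rw [ha f hf]
    exact congrArg Subtype.val (hb f hf)

include hS in
theorem supp_lifts (U : C) : supp (liftsP q hq) U ∈ J U := by
  have : Epi S.g := hS.epi_g
  have h : Presheaf.IsLocallySurjective J S.g.hom := by
    have := (Sheaf.isLocallySurjective_iff_epi' AddCommGrpCat.{u} S.g).mpr inferInstance
    exact this
  refine J.superset_covering ?_ (h.imageSieve_mem (q (op U)))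
  rintro V f ⟨t, ht⟩
  exact ⟨⟨t, ht.trans (hq _)⟩⟩

/-- the torsor of lifts -/
def liftsTorsor : Tors.Torsor S.X₁ where
  P := ⟨liftsP q hq, (isSheaf_iff_isSheaf_of_type J _).2 (isSheaf_lifts q hq)⟩
  vadd {U} g p := ⟨S.f.hom.app U g + p.1, by rw [map_add, g_f, zero_add, p.2]⟩
  zero_vadd {U} p := by
    apply Subtype.ext
    change S.f.hom.app U 0 + p.1 = p.1
    rw [map_zero, zero_add]
  add_vadd {U} g h p := by
    apply Subtype.ext
    change S.f.hom.app U (g + h) + p.1 = S.f.hom.app U g + (S.f.hom.app U h + p.1)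
    rw [map_add, add_assoc]
  map_vadd {U V} f g p := by
    apply Subtype.ext
    change S.X₂.obj.map f (S.f.hom.app U g + p.1) =
      S.f.hom.app V (S.X₁.obj.map f g) + S.X₂.obj.map f p.1
    rw [map_add]
    congr 1
    exact (ConcreteCategory.congr_hom (S.f.hom.naturality f) g).symm
  free_transitive {U} p p' := by
    have := hS.mono_f
    obtain ⟨y, hy⟩ := sections_exact hS U.unop (p'.1 - p.1) (by
      rw [map_sub]
      exact (congrArg₂ (· - ·) p'.2 p.2).trans (sub_self _))
    refine ⟨y, ?_, ?_⟩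
    · apply Subtype.ext
      change S.f.hom.app U y + p.1 = p'.1
      exact (congrArg (· + p.1) hy).trans (sub_add_cancel _ _)
    · intro z hz
      apply sections_injective S.f U.unop
      refine Eq.trans ?_ hy.symm
      have h1 : S.f.hom.app U z + p.1 = p'.1 := congrArg Subtype.val hz
      exact eq_sub_of_add_eq h1
  locally_nonempty U := ⟨supp (liftsP q hq) U, supp_lifts hS q hq U, fun _ _ hf => hf⟩

end Lifts

/-- If every `G`-torsor has a global section then `H¹(G) = 0`. -/
theorem H1_of_hasSection (G : Sheaf J AddCommGrpCat.{u})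
    (h : ∀ T : Tors.Torsor G, T.HasSection) : Subsingleton (Sheaf.H.{u} G 1) := by
  obtain ⟨S, rfl, hS, hI⟩ := exists_injective_ses G
  refine H1_of_lift hS ?_
  intro q hq
  obtain ⟨a⟩ := h (liftsTorsor hS q hq)
  obtain ⟨x, hx⟩ := exists_compat_of_hom _ a
  exact ⟨fun U => (x U).1, fun U V f => congrArg Subtype.val (hx f), fun U => (x U).2⟩

/-- `H¹(G) = 0` iff every `G`-torsor has a global section. -/
theorem main (G : Sheaf J AddCommGrpCat.{u}) :
    Subsingleton (Sheaf.H.{u} G 1) ↔ ∀ T : Tors.Torsor G, T.HasSection :=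
  ⟨fun _ T => hasSection_of_H1 G T, H1_of_hasSection G⟩

end Groth.Agent.Topos.H579.TorsH1
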